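import Mathlib
import Cfsg.Prelude.Def_FusionSystem

/-!
# Every fusion system on a finite group is realized by a (possibly infinite) group (S5286)

Interface file of the team project "LSF".  The group is built inside a semidirect product
`FreeGroup X ⋊ Perm S` (the permutation group permuting a basis), so that the free normal subgroup
comes from the Nielsen–Schreier theorem of Mathlib and no HNN extension is needed.
-/

set_option autoImplicit false

namespace Cfsg.Agent.Lib.Helper67.LSF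

open Cfsg

universe u

/-! ### generic part -/

/-- The automorphisms of `FreeGroup X` induced by a group `Q` permuting the basis `X`. -/
noncomputable def autX {Q : Type u} [Group Q] {X : Type u} (α : Q →* Equiv.Perm X) :
    Q →* MulAut (FreeGroup X) where
  toFun q := FreeGroup.freeGroupCongr (α q)
  map_one' := by
    ext x
    induction x using FreeGroup.induction_on <;> simp_all
  map_mul' q₁ q₂ := by
    ext x
    induction x using FreeGroup.induction_on <;> simp_all

theorem autX_of {Q : Type u} [Group Q] {X : Type u} (α : Q →* Equiv.Perm X) (q : Q) (x : X) :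
    autX α q (FreeGroup.of x) = FreeGroup.of (α q x) := by
  simp [autX]

theorem autX_mk {Q : Type u} [Group Q] {X : Type u} (α : Q →* Equiv.Perm X) (q : Q)
    (L : List (X × Bool)) :
    autX α q (FreeGroup.mk L) = FreeGroup.mk (L.map fun ℓ => (α q ℓ.1, ℓ.2)) := by
  simp [autX, FreeGroup.freeGroupCongr]

/-! ### the model -/

variable {Ω : Type u} [Group Ω] {S : Subgroup Ω}

/-- The left regular representation of `S`. -/
def lam (S : Subgroup Ω) : S →* Equiv.Perm S := MulAction.toPermHom S S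

theorem lam_apply (s x : S) : lam S s x = s * x := rfl

/-- An index: a map `φ : P → S` of the system together with a permutation `σ` of `S` with
`σ ∘ lam u = lam (φ u) ∘ σ` for `u ∈ P`. -/
structure Idx (F : FusionSystem S) where
  /-- the source -/
  P : Subgroup Ω
  /-- the map -/
  φ : P →* Ω
  /-- it is a map of the system -/
  mem : φ ∈ F.Hom P
  /-- the intertwining permutation -/
  σ : Equiv.Perm S
  /-- the intertwining property -/
  hσ : ∀ (u : P) (x : S),
    σ (⟨u, (F.le_of_mem mem).1 u.2⟩ * x) = ⟨φ u, (F.le_of_mem mem).2 u⟩ * σ x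

/-- `lam (P_i)`, a subgroup of `Perm S`. -/
def Lam {F : FusionSystem S} (i : Idx F) : Subgroup (Equiv.Perm S) :=
  (i.P.subgroupOf S).map (lam S)

/-- The basis: for every index `i` the left cosets of `lam (P_i)` in `Perm S`. -/
abbrev X (F : FusionSystem S) : Type u := Σ i : Idx F, Equiv.Perm S ⧸ Lam i

/-- `Perm S` permutes the basis by left multiplication on the cosets. -/
def xperm (F : FusionSystem S) : Equiv.Perm S →* Equiv.Perm (X F) where
  toFun q := Equiv.sigmaCongrRight fun i => MulAction.toPerm (α := Equiv.Perm S) (β := Equiv.Perm S ⧸ Lam i) q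
  map_one' := by
    refine Equiv.ext fun ⟨i, c⟩ => ?_
    show (⟨i, (1 : Equiv.Perm S) • c⟩ : X F) = ⟨i, c⟩
    rw [one_smul]
  map_mul' q₁ q₂ := by
    refine Equiv.ext fun ⟨i, c⟩ => ?_
    show (⟨i, (q₁ * q₂) • c⟩ : X F) = ⟨i, q₁ • q₂ • c⟩
    rw [mul_smul]

theorem xperm_mk (F : FusionSystem S) (q : Equiv.Perm S) (i : Idx F) (c : Equiv.Perm S) :
    xperm F q ⟨i, (c : Equiv.Perm S ⧸ Lam i)⟩ = ⟨i, ((q * c : Equiv.Perm S) : Equiv.Perm S ⧸ Lam i)⟩ := rfl

/-- The action of `Perm S` on `FreeGroup (X F)`. -/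
noncomputable def autF (F : FusionSystem S) : Equiv.Perm S →* MulAut (FreeGroup (X F)) :=
  autX (xperm F)

/-- The ambient group `FreeGroup X ⋊ Perm S`. -/
abbrev Ghat (F : FusionSystem S) : Type u :=
  SemidirectProduct (FreeGroup (X F)) (Equiv.Perm S) (autF F)

/-- The generator `lam s`. -/
noncomputable def aGen (F : FusionSystem S) (s : S) : Ghat F := SemidirectProduct.inr (lam S s)

/-- The base point of the `i`-th block of the basis. -/
def x0 {F : FusionSystem S} (i : Idx F) : X F := ⟨i, ((1 : Equiv.Perm S) : Equiv.Perm S ⧸ Lam i)⟩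

/-- The stable letter `t_i = σ_i * x_i`. -/
noncomputable def tGen {F : FusionSystem S} (i : Idx F) : Ghat F :=
  SemidirectProduct.inr i.σ * SemidirectProduct.inl (FreeGroup.of (x0 i))

/-- The group: generated by `lam S` and the stable letters. -/
noncomputable def GG (F : FusionSystem S) : Subgroup (Ghat F) :=
  Subgroup.closure (Set.range (aGen F) ∪ Set.range (tGen (F := F)))

/-- The embedding of `S`. -/
noncomputable def iota (F : FusionSystem S) : S →* GG F :=
  ((SemidirectProduct.inr : Equiv.Perm S →* Ghat F).comp (lam S)).codRestrict (GG F)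
    (fun s => Subgroup.subset_closure (Or.inl ⟨s, rfl⟩))

theorem iota_coe (F : FusionSystem S) (s : S) : ((iota F s : GG F) : Ghat F) = aGen F s := rfl

/-- `Path F L q`: the element `inr q * inl (mk L)` of `Ghat F` is reached from `lam S` by left
multiplications by generators (`L` is not assumed reduced). -/
inductive Path (F : FusionSystem S) : List (X F × Bool) → Equiv.Perm S → Prop
  | nil (s : S) : Path F [] (lam S s)
  | a (s : S) {L : List (X F × Bool)} {q : Equiv.Perm S} : Path F L q → Path F L (lam S s * q)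
  | t (i : Idx F) {L : List (X F × Bool)} {q : Equiv.Perm S} : Path F L q →
      Path F ((⟨i, ((q⁻¹ : Equiv.Perm S) : Equiv.Perm S ⧸ Lam i)⟩, true) :: L) (i.σ * q)
  | t' (i : Idx F) {L : List (X F × Bool)} {q : Equiv.Perm S} : Path F L q →
      Path F ((⟨i, ((q⁻¹ * i.σ : Equiv.Perm S) : Equiv.Perm S ⧸ Lam i)⟩, false) :: L) (i.σ⁻¹ * q)

/-! ### the packages -/

/-- [SIG] an intertwining permutation exists for every map of the system. -/
def PkgSig : Prop := ∀ {Ω : Type u} [Group Ω] (S : Subgroup Ω) [Finite S] (F : FusionSystem S)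
  (P : Subgroup Ω) (φ : P →* Ω) (h : φ ∈ F.Hom P), ∃ σ : Equiv.Perm S, ∀ (u : P) (x : S),
    σ (⟨u, (F.le_of_mem h).1 u.2⟩ * x) = ⟨φ u, (F.le_of_mem h).2 u⟩ * σ x

/-- [FWD] conjugation by `t_i` is `φ_i` on `lam (P_i)`. -/
def PkgFwd : Prop := ∀ {Ω : Type u} [Group Ω] (S : Subgroup Ω) (F : FusionSystem S) (i : Idx F)
  (u : i.P), tGen i * aGen F ⟨u, (F.le_of_mem i.mem).1 u.2⟩ * (tGen i)⁻¹ =
    aGen F ⟨i.φ u, (F.le_of_mem i.mem).2 u⟩

/-- [MEM] paths give elements of the group. -/
def PkgMem : Prop := ∀ {Ω : Type u} [Group Ω] (S : Subgroup Ω) (F : FusionSystem S)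
  (L : List (X F × Bool)) (q : Equiv.Perm S), Path F L q →
    (SemidirectProduct.inr q * SemidirectProduct.inl (FreeGroup.mk L) : Ghat F) ∈ GG F

/-- [PATH] every element of the group comes from a path. -/
def PkgPath : Prop := ∀ {Ω : Type u} [Group Ω] (S : Subgroup Ω) (F : FusionSystem S) (g : Ghat F),
  g ∈ GG F → ∃ (L : List (X F × Bool)) (q : Equiv.Perm S), Path F L q ∧
    g = SemidirectProduct.inr q * SemidirectProduct.inl (FreeGroup.mk L)

/-- [INV] inversion of paths. -/
def PkgInv : Prop := ∀ {Ω : Type u} [Group Ω] (S : Subgroup Ω) (F : FusionSystem S),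
  (∀ q : Equiv.Perm S, Path F [] q → ∃ s : S, q = lam S s) ∧
  (∀ (x : X F) (L : List (X F × Bool)) (q : Equiv.Perm S), Path F ((x, true) :: L) q →
    ∃ (i : Idx F) (s : S) (q₀ : Equiv.Perm S), Path F L q₀ ∧
      x = ⟨i, ((q₀⁻¹ : Equiv.Perm S) : Equiv.Perm S ⧸ Lam i)⟩ ∧ q = lam S s * i.σ * q₀) ∧
  (∀ (x : X F) (L : List (X F × Bool)) (q : Equiv.Perm S), Path F ((x, false) :: L) q →
    ∃ (i : Idx F) (s : S) (q₀ : Equiv.Perm S), Path F L q₀ ∧
      x = ⟨i, ((q₀⁻¹ * i.σ : Equiv.Perm S) : Equiv.Perm S ⧸ Lam i)⟩ ∧ q = lam S s * i.σ⁻¹ * q₀)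

/-- [RED] every path can be replaced by a path with a reduced word and the same element. -/
def PkgRed : Prop := ∀ {Ω : Type u} [Group Ω] (S : Subgroup Ω) (F : FusionSystem S)
  (L : List (X F × Bool)) (q : Equiv.Perm S), Path F L q →
    ∃ L' : List (X F × Bool), Path F L' q ∧ FreeGroup.IsReduced L' ∧
      FreeGroup.mk L' = FreeGroup.mk L

/-- [FIXLET] a basis permutation fixing a reduced word fixes its letters. -/
def PkgFixLet : Prop := ∀ {X : Type u} (π : Equiv.Perm X) (L : List (X × Bool)),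
  FreeGroup.IsReduced L → FreeGroup.freeGroupCongr π (FreeGroup.mk L) = FreeGroup.mk L →
    ∀ ℓ ∈ L, π ℓ.1 = ℓ.1

/-- [HOM] a conjugation of `Perm S` that maps `lam P` into `lam S` is `lam ∘ ψ` for a
homomorphism `ψ`. -/
def PkgHom : Prop := ∀ {Ω : Type u} [Group Ω] (S : Subgroup Ω) (q : Equiv.Perm S) (P : Subgroup Ω)
  (hP : P ≤ S), (∀ x : P, ∃ y : S, q * lam S ⟨x, hP x.2⟩ * q⁻¹ = lam S y) →
    ∃ (ψ : P →* Ω) (hψ : ∀ x : P, ψ x ∈ S), ∀ x : P,
      lam S ⟨ψ x, hψ x⟩ = q * lam S ⟨x, hP x.2⟩ * q⁻¹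

/-- [BWDCORE] along a path all of whose letters are fixed by `lam P`, conjugation by the
permutation part is a map of the system. -/
def PkgBwdCore : Prop := ∀ {Ω : Type u} [Group Ω] (S : Subgroup Ω) (F : FusionSystem S)
  (L : List (X F × Bool)) (q : Equiv.Perm S), Path F L q →
    ∀ (P : Subgroup Ω) (hP : P ≤ S) (φ : P →* Ω) (hφ : ∀ x : P, φ x ∈ S),
      (∀ x : P, ∀ ℓ ∈ L, xperm F (lam S ⟨x, hP x.2⟩) ℓ.1 = ℓ.1) →
      (∀ x : P, q * lam S ⟨x, hP x.2⟩ * q⁻¹ = lam S ⟨φ x, hφ x⟩) → φ ∈ F.Hom P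

/-- [BWD] conjugations by elements of the group are maps of the system. -/
def PkgBwd : Prop := ∀ {Ω : Type u} [Group Ω] (S : Subgroup Ω) (F : FusionSystem S) (g : Ghat F),
  g ∈ GG F → ∀ (P : Subgroup Ω) (hP : P ≤ S) (φ : P →* Ω) (hφ : ∀ x : P, φ x ∈ S),
    (∀ x : P, aGen F ⟨φ x, hφ x⟩ = g * aGen F ⟨x, hP x.2⟩ * g⁻¹) → φ ∈ F.Hom P

/-- [STAB] the elements of the group with trivial free part are those of `lam S`. -/
def PkgStab : Prop := ∀ {Ω : Type u} [Group Ω] (S : Subgroup Ω) (F : FusionSystem S) (g : Ghat F),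
  g ∈ GG F → g.left = 1 → ∃ s : S, g = aGen F s

/-- [CONVEX] the set of free parts of the elements of the group is convex in the Cayley tree. -/
def PkgConvex : Prop := ∀ {Ω : Type u} [Group Ω] (S : Subgroup Ω) (F : FusionSystem S)
  (v : FreeGroup (X F)) (L₁ L₂ : List (X F × Bool)), FreeGroup.IsReduced (L₁ ++ L₂) →
    (∃ g ∈ GG F, g.left = v) → (∃ g ∈ GG F, g.left = v * FreeGroup.mk (L₁ ++ L₂)) →
      ∃ g ∈ GG F, g.left = v * FreeGroup.mk L₁

/-- [VSHAPE] along a geodesic of the Cayley tree the distance to a fixed vertex first decreases and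
then increases: an interior vertex is strictly closer than the farther end. -/
def PkgVShape : Prop := ∀ {X : Type u} [DecidableEq X] (a : FreeGroup X) (L₁ L₂ : List (X × Bool)),
  FreeGroup.IsReduced (L₁ ++ L₂) → L₁ ≠ [] → L₂ ≠ [] →
    (a * FreeGroup.mk L₁).norm < max a.norm (a * FreeGroup.mk (L₁ ++ L₂)).norm

/-- [TREE] a finite subgroup of `FreeGroup X ⋊ Q` fixes a vertex of every invariant convex set of
vertices of the Cayley tree (affine action `h • v = h.left * h.right v`). -/
def PkgTree : Prop := ∀ {Q : Type u} [Group Q] {X : Type u} (α : Q →* Equiv.Perm X)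
  (H : Subgroup (SemidirectProduct (FreeGroup X) Q (autX α))) [Finite H] (V : Set (FreeGroup X)),
  (1 : FreeGroup X) ∈ V → (∀ h ∈ H, ∀ v ∈ V, h.left * autX α h.right v ∈ V) →
  (∀ v ∈ V, ∀ L₁ L₂ : List (X × Bool), FreeGroup.IsReduced (L₁ ++ L₂) →
    v * FreeGroup.mk (L₁ ++ L₂) ∈ V → v * FreeGroup.mk L₁ ∈ V) →
  ∃ v ∈ V, ∀ h ∈ H, h.left * autX α h.right v = v

/-- [FIN] finite subgroups are conjugate into the image of `S`. -/
def PkgFin : Prop := ∀ {Ω : Type u} [Group Ω] (S : Subgroup Ω) (F : FusionSystem S)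
  (H : Subgroup (GG F)), Finite H → ∃ g : GG F, ∀ h ∈ H, g * h * g⁻¹ ∈ (iota F).range

/-- [FREE] the free normal subgroup. -/
def PkgFree : Prop := ∀ {Ω : Type u} [Group Ω] (S : Subgroup Ω) [Finite S] (F : FusionSystem S),
  ∃ N : Subgroup (GG F), N.Normal ∧ IsFreeGroup N ∧ N.index ∣ (Nat.card S).factorial

end Cfsg.Agent.Lib.Helper67.LSF
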