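import Cfsg.Agent.Lib.Helper67.LSF.Defs

/-!
# S5286 from the packages of `Defs`
-/

set_option autoImplicit false

namespace Cfsg.Agent.Lib.Helper67.LSF

open Cfsg

universe u

theorem iota_injective {Ω : Type u} [Group Ω] {S : Subgroup Ω} (F : FusionSystem S) :
    Function.Injective (iota F) := by
  intro s s' h
  have h1 : aGen F s = aGen F s' := congrArg Subtype.val h
  have h2 : lam S s = lam S s' := SemidirectProduct.inr_injective h1
  have h3 := congrArg (fun e => e 1) h2
  simpa [lam_apply] using h3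

/-- The frozen statement S5286 from five packages. -/
theorem s5286_of (sig : PkgSig.{u}) (fwd : PkgFwd.{u}) (bwd : PkgBwd.{u}) (fin : PkgFin.{u})
    (free : PkgFree.{u})
    {Ω : Type u} [Group Ω] {S : Subgroup Ω} [Finite S] (p : ℕ) [Fact p.Prime]
    (_hS : IsPGroup p ↥S) (F : Cfsg.FusionSystem S) :
    ∃ (G : Type u) (_ : Group G) (ι : ↥S →* G), F.IsRealizedBy ι ∧
      (∀ H : Subgroup G, Finite ↥H → ∃ g : G, ∀ h ∈ H, g * h * g⁻¹ ∈ ι.range) ∧
      ∃ N : Subgroup G, N.Normal ∧ IsFreeGroup ↥N ∧ N.index ∣ (Nat.card ↥S).factorial := by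
  refine ⟨GG F, inferInstance, iota F, ⟨iota_injective F, ?_⟩, fin S F, free S F⟩
  intro P hP φ hφ
  constructor
  · intro hmem
    obtain ⟨σ, hσ⟩ := sig S F P φ hmem
    let i : Idx F := ⟨P, φ, hmem, σ, hσ⟩
    refine ⟨⟨tGen i, Subgroup.subset_closure (Or.inr ⟨i, rfl⟩)⟩, fun x => ?_⟩
    apply Subtype.ext
    have h := fwd S F i x
    simp only [Subgroup.coe_mul, Subgroup.coe_inv, iota_coe]
    exact h.symm
  · rintro ⟨g, hg⟩
    refine bwd S F g.1 g.2 P hP φ hφ fun x => ?_
    have h := congrArg Subtype.val (hg x)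
    simpa [iota_coe] using h

end Cfsg.Agent.Lib.Helper67.LSF
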